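import Mathlib
import Cfsg.Agent.Flav.B
import Cfsg.Agent.BG.Quo
import Cfsg.Agent.BG.AmbConj

/-!
# Maximal solvable subgroups generated by two conjugates of a subgroup of prime order
-/

set_option autoImplicit false

namespace Cfsg.Agent.Flav

open Module Cfsg.Agent.BG Cfsg.Agent.BG.Amb Cfsg.Agent.BG.RepGlue Cfsg.Agent.BG.QuoApi
  Cfsg.Agent.BG.RepFrob Cfsg.Agent.H23.HH
open scoped commutatorElement Pointwise
open Subgroup (zpowers)

theorem main' {k G W : Type*} [Field k] [Group G] [AddCommGroup W] [Module k W] [Finite G]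
    [FiniteDimensional k W] {ρ : Representation k G W} {ℓ : ℕ} [Fact ℓ.Prime] [CharP k ℓ]
    (hs : Group.IsSolvable G) {x : G} {p : ℕ} (hp : p.Prime) (h5 : 5 ≤ p) (hx : x ^ p = 1)
    (hx1 : ρ x ≠ 1) (hgen : ∀ N : Subgroup G, N.Normal → x ∈ N → N = ⊤)
    (hH : ∀ N : Subgroup G, N.Normal → fixSub ρ N = ⊥ ∨ fixSub ρ N = ⊤) :
    2 * finrank k (fixSub ρ (zpowers x)) < finrank k W := by
  haveI : Nontrivial W := by
    by_contra h
    rw [not_nontrivial_iff_subsingleton] at h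
    exact hx1 (Subsingleton.elim _ _)
  have := Fact.mk hp
  let f := QuotientGroup.mk' ρ.ker
  have hf : Function.Surjective f := QuotientGroup.mk'_surjective _
  let σ : Representation k (G ⧸ ρ.ker) W := QuotientGroup.lift ρ.ker ρ le_rfl
  have h1 : ∀ S : Subgroup G, fixSub σ (S.map f) = fixSub ρ S := fun S => by
    ext v
    exact ⟨fun h g hg => h (f g) ⟨g, hg, rfl⟩, fun h _ ⟨g, hg, e⟩ => e ▸ h g hg⟩
  rw [← h1, MonoidHom.map_zpowers]
  refine main (ℓ := ℓ) inferInstance hp h5 (orderOf_eq_prime (by rw [← map_pow, hx, map_one])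
    fun e => hx1 ((QuotientGroup.eq_one_iff x).1 e)) (fun N hN h => ?_) fun N hN h0 => ?_
  · rw [← Subgroup.map_comap_eq_self_of_surjective hf N, hgen (N.comap f) inferInstance h,
      Subgroup.map_top_of_surjective f hf]
  · rw [← Subgroup.map_comap_eq_self_of_surjective hf N] at h0 ⊢
    rw [h1]
    refine (hH _ inferInstance).resolve_right fun h => h0 ?_
    rw [Subgroup.map_eq_bot_iff, QuotientGroup.ker_mk']
    exact fixSub_eq_top_iff.1 h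

variable {G : Type*} [Group G] [Finite G]

theorem card_sq_lt {V A : Subgroup G} {ℓ : ℕ} (hℓ : ℓ.Prime) (hV : IsElementaryAbelian ℓ V)
    (hs : Group.IsSolvable A) (hAV : A ≤ 𝐍(V))
    (hirr : ∀ M : Subgroup G, A ≤ 𝐍(M) → M ≤ V → M = ⊥ ∨ M = V) {x : G} {p : ℕ} (hp : p.Prime)
    (h5 : 5 ≤ p) (hx : x ^ p = 1) (hxA : x ∈ A) (hxV : x ∉ 𝐂(V))
    (hgen : ∀ N : Subgroup G, A ≤ 𝐍(N) → x ∈ N → A ≤ N) :
    Nat.card ↥(V ⊓ 𝐂[x]) ^ 2 < Nat.card V := by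
  have := Fact.mk hℓ
  obtain ⟨n, ρ, hn, h1, h2⟩ := exists_rep hV A.subtype (fun g => hAV g.2) (ZMod ℓ)
  have h3 := main' (ρ := ρ) (ℓ := ℓ) (x := ⟨x, hxA⟩) hs hp h5 (Subtype.ext hx)
    (fun e => hxV ((h2 _).1 e)) (fun N hN h => top_le_iff.1 fun g _ => by
      obtain ⟨g', hg', e⟩ := hgen _ (le_normalizer_map_subtype N) ⟨_, h, rfl⟩ g.2
      exact Subtype.ext e ▸ hg') fun N hN => by
      have h4 := h1 N
      rw [← Subgroup.coe_map] at h4
      rcases hirr _ (le_norm_inf_cent hAV (le_normalizer_map_subtype N)) inf_le_left with h | h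
      · rw [h, Subgroup.card_bot, eq_comm, Nat.pow_eq_one] at h4
        exact Or.inl (Submodule.finrank_eq_zero.1 (h4.resolve_left hℓ.ne_one))
      · exact Or.inr (fixSub_eq_top_iff.2 fun g hg =>
          (h2 g).2 (le_cent_symm (inf_eq_left.1 h) ⟨g, hg, rfl⟩))
  have h4 := h1 (zpowers (⟨x, hxA⟩ : A))
  rw [← Subgroup.coe_map, MonoidHom.map_zpowers, cent_zpowers] at h4
  rw [Module.finrank_fin_fun] at h3
  exact (congrArg (· ^ 2) h4).trans_lt (by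
    rw [hn, ← pow_mul, mul_comm]; exact Nat.pow_lt_pow_right hℓ.one_lt h3)

omit [Finite G] in
theorem le_sup_conj {V : Subgroup G} {x a v : G} (hv : v ∈ V) :
    zpowers x ⊔ zpowers (a * x * a⁻¹) ≤ V ⊔ (zpowers x ⊔ zpowers (v * a * x * (v * a)⁻¹)) := by
  refine sup_le (le_sup_of_le_right le_sup_left) (Subgroup.zpowers_le.2 ?_)
  rw [show a * x * a⁻¹ = v⁻¹ * (v * a * x * (v * a)⁻¹) * v by group]
  exact Subgroup.mul_mem _ (Subgroup.mul_mem _ (Subgroup.mem_sup_left (V.inv_mem hv))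
    (Subgroup.mem_sup_right (Subgroup.mem_sup_right (Subgroup.mem_zpowers _))))
    (Subgroup.mem_sup_left hv)

omit [Finite G] in
theorem sup_conj_le {V A : Subgroup G} {x a v : G} (hv : v ∈ V) (hx : x ∈ A) (ha : a ∈ A) :
    zpowers x ⊔ zpowers (v * a * x * (v * a)⁻¹) ≤ V ⊔ A := by
  have h1 : x ∈ V ⊔ A := Subgroup.mem_sup_right hx
  have h2 : v * a ∈ V ⊔ A := Subgroup.mul_mem_sup hv ha
  exact sup_le (Subgroup.zpowers_le.2 h1) (Subgroup.zpowers_le.2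
    (Subgroup.mul_mem _ (Subgroup.mul_mem _ h2 h1) (Subgroup.inv_mem _ h2)))

theorem core {V A Q : Subgroup G} (hV : V ≤ 𝐂(V)) (hs : Group.IsSolvable A) (hAV : A ≤ 𝐍(V))
    (hirr : ∀ M : Subgroup G, A ≤ 𝐍(M) → M ≤ V → M = ⊥ ∨ M = V) (hQA : Q ≤ A) (hAQ : A ≤ 𝐍(Q))
    (hcop : (Nat.card V).Coprime (Nat.card Q)) (hnc : ¬ V ≤ 𝐂(Q)) {x a : G} {p : ℕ}
    (hp : p.Prime) (h5 : 5 ≤ p) (hx : x ^ p = 1) (ha : a ∈ A)
    (hA : A = zpowers x ⊔ zpowers (a * x * a⁻¹)) :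
    ∃ v ∈ V, V ≤ zpowers x ⊔ zpowers (v * a * x * (v * a)⁻¹) := by
  classical
  have hxA : x ∈ A := hA.ge (Subgroup.mem_sup_left (Subgroup.mem_zpowers x))
  have hgen : ∀ N : Subgroup G, A ≤ 𝐍(N) → x ∈ N → A ≤ N := fun N h1 h2 => hA.le.trans
    (sup_le (Subgroup.zpowers_le.2 h2) (Subgroup.zpowers_le.2 (conj_mem_of_le_norm h1 ha h2)))
  have hsV := solvable_of_comm (comm_of_le_cent hV)
  obtain ⟨ℓ, hℓ, hel⟩ := Core.minimal_invariant_elementary A V hsV hAV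
    (fun e => hnc (e.le.trans bot_le)) hirr
  have h0 := card_sq_lt hℓ hel hs hAV hirr hp h5 hx hxA (fun h => hnc (le_cent_symm
    (hQA.trans (hgen _ (le_norm_cent hAV) h)))) hgen
  have hN : V ⊓ 𝐍(Q) = ⊥ := by
    rw [inf_norm_eq_inf_cent (hQA.trans hAV) (Core.disjoint_of_coprime hcop).eq_bot]
    exact (hirr _ (le_norm_inf_cent hAV hAQ) inf_le_left).resolve_right
      fun e => hnc (inf_eq_left.1 e)
  have hcm : ∀ y ∈ A, ∀ w ∈ V, w⁻¹ * y * w ∈ 𝐍(Q) → w ∈ 𝐂[y] := fun y hy w hw h => by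
    have h1 : w⁻¹ * (y * w * y⁻¹) ∈ V ⊓ 𝐍(Q) := ⟨V.mul_mem (V.inv_mem hw)
      (conj_mem_of_le_norm hAV hy hw), by
        rw [← mul_assoc, ← mul_assoc]; exact (𝐍(Q)).mul_mem h ((𝐍(Q)).inv_mem (hAQ hy))⟩
    rw [hN, Subgroup.mem_bot, inv_mul_eq_one, eq_mul_inv_iff_mul_eq] at h1
    exact mem_cent1.2 h1
  by_contra hc
  have key : ∀ v ∈ V, ∃ n ∈ V ⊓ 𝐂[x], v⁻¹ * n ∈ V ⊓ 𝐂[a * x * a⁻¹] := fun v hv => by
    obtain ⟨B, hB⟩ : ∃ B, B = zpowers x ⊔ zpowers (v * a * x * (v * a)⁻¹) := ⟨_, rfl⟩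
    have h1 : A ≤ V ⊔ B := hB ▸ hA.le.trans (le_sup_conj hv)
    have h2 : B ≤ V ⊔ A := hB ▸ sup_conj_le hv hxA ha
    have h3 : B ≤ 𝐍(V) := h2.trans (sup_le Subgroup.le_normalizer hAV)
    have h4 : V ⊓ B = ⊥ := (hirr _ (h1.trans (sup_le (le_norm_of_le_cent (hV.trans
      (cent_anti inf_le_left))) (le_norm_inf h3 Subgroup.le_normalizer))) inf_le_left).resolve_right
        fun e => hc ⟨v, hv, hB ▸ inf_eq_left.1 e⟩
    obtain ⟨n, hn, h5⟩ := Core.exists_conj_le_of_le_sup V Q B (hQA.trans hAV) h3 hcop.symm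
      (Or.inr hsV) (hQA.trans h1)
    have h6 : MulAut.conj n • Q ⊔ V = Q ⊔ V := by
      rw [← conj_eq_of_mem (H := Q ⊔ V) (Subgroup.mem_sup_right hn), conj_sup, conj_eq_of_mem hn]
    have h7 : B ≤ MulAut.conj n • 𝐍(Q) := by
      rw [conj_normalizer, ← sup_bot_eq (MulAut.conj n • Q), ← h4,
        ← sup_inf_assoc_of_le' h5 (h5.trans h3), h6]
      exact le_norm_inf (h2.trans (sup_le (le_norm_of_le le_sup_right)
        (le_norm_sup hAQ hAV))) Subgroup.le_normalizer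
    refine ⟨n, ⟨hn, hcm x hxA n hn (mem_conj.1 (h7 (hB.ge (Subgroup.mem_sup_left
      (Subgroup.mem_zpowers x)))))⟩, V.mul_mem (V.inv_mem hv) hn, hcm _ (A.mul_mem
        (A.mul_mem ha hxA) (A.inv_mem ha)) _ (V.mul_mem (V.inv_mem hv) hn) ?_⟩
    have h8 := mem_conj.1 (h7 (hB.ge (Subgroup.mem_sup_right (Subgroup.mem_zpowers _))))
    rwa [show n⁻¹ * (v * a * x * (v * a)⁻¹) * n = (v⁻¹ * n)⁻¹ * (a * x * a⁻¹) * (v⁻¹ * n) by
      group] at h8
  choose! n hn hn' using key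
  have h1 : Nat.card V ≤ Nat.card (↥(V ⊓ 𝐂[x]) × ↥(V ⊓ 𝐂[a * x * a⁻¹])) :=
    Nat.card_le_card_of_injective (fun v : V => (⟨n v, hn v v.2⟩, ⟨_, hn' v v.2⟩)) fun v w h => by
      have h2 : n v = n w := congrArg (fun t => (t.1 : G)) h
      have h3 : (v : G)⁻¹ * n v = (w : G)⁻¹ * n w := congrArg (fun t => (t.2 : G)) h
      rw [h2, mul_left_inj, inv_inj] at h3
      exact Subtype.ext h3
  rw [Nat.card_prod, ← conj_centralizer_singleton, ← conj_eq_of_mem_normalizer (hAV ha),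
    ← conj_inf, conj_eq_of_mem_normalizer (hAV ha), card_conj, ← sq] at h1
  exact absurd h0 (not_lt.2 h1)

theorem lift {W A Q : Subgroup G} (h : MinAct W A Q) (hs : Group.IsSolvable A) {x a : G} {p : ℕ}
    (hp : p.Prime) (h5 : 5 ≤ p) (hx : x ^ p = 1) (ha : a ∈ A)
    (hA : A = zpowers x ⊔ zpowers (a * x * a⁻¹)) :
    ∃ v ∈ W, W ≤ zpowers x ⊔ zpowers (v * a * x * (v * a)⁻¹) := by
  have hxA : x ∈ A := hA.ge (Subgroup.mem_sup_left (Subgroup.mem_zpowers x))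
  obtain ⟨D, hD⟩ : ∃ D, D = W ⊓ 𝐂(Q) := ⟨_, rfl⟩
  have hAD : A ≤ 𝐍(D) := hD ▸ h.normD
  have hDc : D ≤ 𝐂(W) := hD ▸ h.D_le_cent
  have hWD : W ≤ 𝐍(D) := le_norm_of_le_cent (le_cent_symm hDc)
  have hlt : D < W := hD ▸ h.D_lt
  have hz : ∀ {y} (hy : y ∈ 𝐍(D)), quo D (zpowers y) = zpowers (quoMk D ⟨y, hy⟩) := fun hy =>
    quo_zpowers ⟨_, hy⟩
  obtain ⟨_, hv, h1⟩ := core (V := quo D W) (A := quo D A) (Q := quo D Q)
    (x := quoMk D ⟨x, hAD hxA⟩) (a := quoMk D ⟨a, hAD ha⟩)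
    ((quo_le_centralizer_iff hWD hWD).2 (hD ▸ h.der_le)) (isSolvable_quo D)
    (quo_le_normalizer h.norm) (fun M h1 h2 => by
      rcases h.eq_or_le ((coquo_le_iff hlt.le).2 h2) ((le_normalizer_coquo_iff hAD).2 h1) with e | e
      · exact Or.inr (by rw [← e, quo_coquo])
      · exact Or.inl (by rw [← quo_coquo M]; exact quo_eq_bot_of_le (hD ▸ e)))
    (quo_mono h.le) (quo_le_normalizer h.normY) (coprime_quo h.cop D)
    (fun e => hlt.not_ge (h.comm_eq.ge.trans ((quo_le_centralizer_iff hWD (h.le.trans hAD)).1 e)))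
    hp h5 (by rw [← map_pow]; exact quoMk_eq_one_iff.2 (by simpa [hx] using D.one_mem))
    (mk_mem_quo ha) (by
      have h1 : a * x * a⁻¹ ∈ A := A.mul_mem (A.mul_mem ha hxA) (A.inv_mem ha)
      rw [← hz, ← map_inv, ← map_mul, ← map_mul, ← quo_zpowers]
      exact (congrArg _ hA).trans
        (quo_sup (Subgroup.zpowers_le.2 (hAD hxA)) (Subgroup.zpowers_le.2 (hAD h1))))
  obtain ⟨⟨v, hvD⟩, hv', rfl⟩ := mem_quo.1 hv
  replace hv : v ∈ W := hv'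
  refine ⟨v, hv, ?_⟩
  obtain ⟨B, hB⟩ : ∃ B, B = zpowers x ⊔ zpowers (v * a * x * (v * a)⁻¹) := ⟨_, rfl⟩
  have h2 : A ≤ W ⊔ B := hB ▸ hA.le.trans (le_sup_conj hv)
  have h3 : B ≤ W ⊔ A := hB ▸ sup_conj_le hv hxA ha
  have h4 := h3.trans (sup_le hWD hAD)
  have h5 := h3.trans (sup_le Subgroup.le_normalizer h.norm)
  rw [← hz, ← map_mul, ← map_inv, ← map_mul, ← map_mul, ← quo_zpowers] at h1
  replace h1 : W ≤ B ⊔ D := (quo_le_quo_iff' hWD h4).1 (h1.trans ((congrArg _ hB).trans (quo_sup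
    (le_sup_left.trans (hB.ge.trans h4)) (le_sup_right.trans (hB.ge.trans h4)))).ge)
  rw [← hB]
  rcases h.eq_or_le (inf_le_right : B ⊓ W ≤ W) ((h2.trans (sup_le h1 le_sup_left)).trans (sup_le
    (le_norm_inf Subgroup.le_normalizer h5) (le_norm_of_le_cent (hDc.trans
      (cent_anti inf_le_right))))) with e | e
  · exact inf_eq_right.1 e
  · refine absurd ?_ hlt.not_ge
    rw [← inf_eq_right.2 h1, sup_comm, sup_inf_assoc_of_le hlt.le h4]
    exact sup_le le_rfl (hD ▸ e)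

theorem nil_sup {A V : Subgroup G} {x : G} {p : ℕ} (hp : p.Prime) (h5 : 5 ≤ p) (hx : x ^ p = 1)
    (hs : Group.IsSolvable A) {a : G} (ha : a ∈ A) (hA : A = zpowers x ⊔ zpowers (a * x * a⁻¹))
    (hmax : ∀ b : G, A ≤ zpowers x ⊔ zpowers (b * x * b⁻¹) →
      Group.IsSolvable ↥(zpowers x ⊔ zpowers (b * x * b⁻¹)) →
      b ∈ zpowers x ⊔ zpowers (b * x * b⁻¹) → zpowers x ⊔ zpowers (b * x * b⁻¹) = A)
    (hV : Group.IsNilpotent V) (hAV : A ≤ 𝐍(V)) : Group.IsNilpotent ↥(fittingOf A ⊔ V) := by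
  have hxA : x ∈ A := hA.ge (Subgroup.mem_sup_left (Subgroup.mem_zpowers x))
  have h1 : ∀ q : ℕ, piCoreOf {q}ᶜ V ≤ 𝐂(piCoreOf {q} A) := fun q => by
    by_contra hc
    obtain ⟨W, hW, h⟩ := exists_minAct (le_norm_piCoreOf_of _ hAV) (piCoreOf_le _ A)
      (le_norm_piCoreOf _ A) (pi_coprime (piCoreOf_pi _ _) (piCoreOf_pi _ _)).symm
      (solvable_mono (solvable_of_nilpotent hV) (piCoreOf_le _ _)) hc
    obtain ⟨v, hv, h2⟩ := lift h hs hp h5 hx ha hA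
    have h3 := hA.le.trans ((le_sup_conj hv).trans (sup_le h2 le_rfl))
    have h4 := hmax (v * a) h3 (solvable_mono (solvable_sup h.sol hs h.norm)
      (sup_conj_le hv hxA ha)) (Subgroup.mul_mem _ (h2 hv) (h3 ha))
    exact h.nle (le_cent_of_disjoint ((h2.trans h4.le).trans h.normY) h.normQ
      (Core.disjoint_of_coprime h.cop).eq_bot)
  have h2 : ∀ q : ℕ, q.Prime → piCoreOf {q} A ⊔ piCoreOf {q} V ≤ fittingOf (fittingOf A ⊔ V) :=
    fun q hq => by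
      have := Fact.mk hq
      have h3 : A ≤ 𝐍(piCoreOf {q} V) := le_norm_piCoreOf_of _ hAV
      refine le_fittingOf (sup_le_sup (piCoreOf_le_fittingOf A) (piCoreOf_le _ _))
        (sup_le ((fittingOf_le A).trans (le_norm_sup (le_norm_piCoreOf _ A) h3)) ?_)
        (IsPGroup.to_sup_of_normal_right' (piCoreOf_isPGroup A) (piCoreOf_isPGroup V)
          ((piCoreOf_le _ A).trans h3)).isNilpotent
      exact (nil_dProd {q} hV).1.ge.trans (sup_le (le_norm_of_le le_sup_right)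
        (le_norm_sup (le_norm_of_le_cent (h1 q)) ((piCoreOf_le _ V).trans (le_norm_piCoreOf _ V))))
  refine nilpotent_of_le_fittingOf (H := fittingOf A ⊔ V) (sup_le
    (fittingOf_le_of_forall_piCoreOf fun q hq _ => le_sup_left.trans (h2 q hq)) ?_)
  exact (fittingOf_eq_self hV).ge.trans
    (fittingOf_le_of_forall_piCoreOf fun q hq _ => le_sup_right.trans (h2 q hq))

end Cfsg.Agent.Flav
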